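import Cfsg.Agent.H892.EP.Good
import Cfsg.Agent.H53.HC.RgdLevi
import Cfsg.Agent.KFacts.RgdAutFacts

/-!
# Characters of the principal block without fixed vectors of the radical of a parabolic subgroup
(helper298, task 5324, S4929)

* `exists_noFix` : Harish-Chandra induction, abstract form for an arbitrary subgroup `V0`;
* `exists_left_min` : `Y = ⋃ P_J k B` with `k` over an element minimal in `W_J w`;
* `exists_noFix_VJ` : `Good p r M_J`, no root of `K` is conjugate to a root of `J`: the principal `p`-block contains a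
  character without `V_K`-fixed vectors.
-/

set_option autoImplicit false
set_option linter.unusedSectionVars false

open scoped ComplexConjugate
open Cfsg Cfsg.Agent.Characters.Core Cfsg.Agent.Blocks.Local

namespace Cfsg.Agent.H298.EP

open Cfsg.Agent.H892.EP

universe u v

section abs

variable {G : Type u} [Group G] [Finite G] {L : Type v} [Group L] [Finite L] {p r : ℕ} [Fact p.Prime] [Fact r.Prime]

theorem exists_noFix (H : Subgroup G) (π : H →* L) (hπ : Function.Surjective π) (V0 : Subgroup G)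
    (hP : ∀ g : G, ∃ Q : Sylow r L, ∀ q ∈ (Q : Subgroup L), ∃ x : H, g⁻¹ * (x : G) * g ∈ V0 ∧ π x = q)
    (hL : Good p r L) {M : Ideal AlgInt} (hM : IsPModular p M) :
    ∃ χ : IrrCharacter G, χ ∈ principalBlock M G ∧ NoFix V0 (χ : G → ℂ) := by
  have := Fintype.ofFinite H
  obtain ⟨ψ, hψ, hno⟩ := hL M hM
  have h1 := Cfsg.Agent.H684.BlockTools.infl_mem hM π hπ hψ
  obtain ⟨χ, hχ, hover⟩ := exists_over hM H _ h1
  refine ⟨χ, hχ, ?_⟩
  by_contra hcon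
  obtain ⟨m, σ, hσ, hσψ⟩ := ψ.2
  obtain ⟨n, ρ, hρ, hρχ⟩ := χ.2
  have h2 : md V0 ρ.character ≠ 0 := by
    rw [hρχ, Ne, md_eq_zero_iff]
    exact hcon
  let σH : Representation ℂ H (Fin m → ℂ) := σ.comp π
  have h3 : σH.character = ((Cfsg.Agent.H684.BlockTools.infl π hπ ψ : IrrCharacter H) : H → ℂ) := by
    funext x
    show σ.character (π x) = (ψ : L → ℂ) (π x)
    rw [hσψ]
  obtain ⟨g, w, hw, hfix⟩ := exists_fixed ρ hρ h2 σH (by
    rw [h3]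
    have h4 : (fun h : H => ρ.character h) = fun h : H => (χ : G → ℂ) h := by rw [hρχ]
    rw [h4]
    exact hover)
  obtain ⟨Q, hQ⟩ := hP g
  have h5 := hno Q
  rw [← hσψ] at h5
  refine not_noFix σ hw (fun q hq => ?_) h5
  obtain ⟨x, hx, rfl⟩ := hQ q hq
  exact hfix x hx

end abs

section rgd

open CoxeterSystem Cfsg.Agent.ChevalleyStructure.CoxeterGeom Cfsg.Agent.Tits.Roots Cfsg.Agent.Tits.Core
  Cfsg.Agent.Tits.Exchange Cfsg.Agent.Nodes.Reps Cfsg.Agent.Nodes.BNOf Cfsg.Agent.Nodes.StabComb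
  Cfsg.Agent.Nodes.Bruhat Cfsg.Agent.Nodes.OppDec Cfsg.Agent.Nodes.LeviDec Cfsg.Agent.H53.HC

variable {I W : Type*} {Y : Type u} [Fintype I] [DecidableEq I] [Group W] [Group Y] {M : CoxeterMatrix I}
  {cs : CoxeterSystem M W} {A : I → I → ℤ} {h : IsCartan M A} {r : ℕ} {T : Subgroup Y} {n : I → Y}
  {X : (I → ℤ) → Subgroup Y}

variable (R : RGD cs h r T n X)

include R

/-- Every element is `a k b` with `a ∈ P_J`, `b ∈ B` and `k` over an element minimal in `W_J w`. -/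
theorem exists_left_min [Finite W] (hG : GG cs h T X = ⊤) (J : Set I) (x : Y) :
    ∃ a ∈ PJ cs h T X J, ∃ b ∈ RGD.B cs h T X, ∃ w g, Rp cs R.nsys w g ∧ x = a * g * b ∧
      ∀ i ∈ J, 0 ≤ rep cs h w⁻¹ (sr i) := by
  classical
  have hex : ∃ m : ℕ, ∃ w, cs.length w = m ∧ ∃ a ∈ PJ cs h T X J, ∃ b ∈ RGD.B cs h T X, ∃ g,
      Rp cs R.nsys w g ∧ x = a * g * b := by
    obtain ⟨w, b₁, hb₁, k, hk, b₂, hb₂, e⟩ := (mem_GG R).1 (show x ∈ GG cs h T X by rw [hG]; exact Subgroup.mem_top x)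
    exact ⟨_, w, rfl, b₁, B_le_PJ hb₁, b₂, hb₂, k, hk, e⟩
  obtain ⟨w, hw, a, ha, b, hb, g, hg, e⟩ := Nat.find_spec hex
  have hmin := fun m hm => Nat.find_min hex (m := m) hm
  have hmin' : ∀ v, (∃ a ∈ PJ cs h T X J, ∃ b ∈ RGD.B cs h T X, ∃ g, Rp cs R.nsys v g ∧ x = a * g * b) →
      cs.length w ≤ cs.length v := by
    intro v hv
    rw [hw]
    by_contra hcon
    exact hmin _ (not_le.1 hcon) ⟨v, rfl, hv⟩
  refine ⟨a, ha, b, hb, w, g, hg, e, ?_⟩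
  intro i hi
  refine nonneg_of_lt cs h w⁻¹ i ?_
  rw [cs.length_inv, ← cs.length_inv (w⁻¹ * cs.simple i), mul_inv_rev, inv_inv, cs.inv_simple]
  have h1 := hmin' (cs.simple i * w) ⟨a * (n i)⁻¹, mul_mem ha (inv_mem (LJ_le_PJ (n_mem_LJ R hi))), b, hb,
    n i * g, (rp_simple cs R.nsys i).mul hg, by rw [e]; group⟩
  have h2 := cs.length_simple_mul w i
  omega

/-- `U ∩ L_J = U_J` -/
theorem mem_UJ_of_mem [Finite W] {J : Set I} {x : Y} (hx : x ∈ RGD.Sup X (RGD.Pos cs h)) (hL : x ∈ LJ cs h T X J) :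
    x ∈ UJ cs h X J := by
  obtain ⟨u, hu, v, hv, rfl⟩ := (mem_U_iff R (J := J)).1 hx
  have huL : u ∈ LJ cs h T X J := BJ_le_LJ (UJ_le_BJ hu)
  have hvL : v ∈ LJ cs h T X J := by
    have := mul_mem (inv_mem huL) hL
    rwa [inv_mul_cancel_left] at this
  rw [eq_one_of_mem_LJ_of_mem_VJ R hvL hv, mul_one]
  exact hu

theorem UJ_le_MJ (J : Set I) : UJ cs h X J ≤ MJ cs h X J := RGD.Sup_mono (PosJ_subset J)

/-- `U_J` is a Sylow subgroup of `M_J` -/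
theorem exists_sylow_MJ [Finite W] [Finite Y] [Fact r.Prime] (hG : GG cs h T X = ⊤) (J : Set I) :
    ∃ S : Sylow r ↥(MJ cs h X J), (S : Subgroup ↥(MJ cs h X J)) = (UJ cs h X J).subgroupOf (MJ cs h X J) := by
  have hU : IsPGroup r (RGD.Sup X (RGD.Pos cs h)) := R.isPGroup_Upos
  have hUJ : IsPGroup r (UJ cs h X J) := hU.to_le (UJ_le_U J)
  have hV : IsPGroup r (VJ cs h X J) := hU.to_le (VJ_le_U J)
  obtain ⟨S, hS⟩ := (hUJ.of_injective (Subgroup.subgroupOfEquivOfLe (UJ_le_MJ R J)).toMonoidHom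
    (MulEquiv.injective _)).exists_le_sylow
  refine ⟨S, le_antisymm ?_ hS⟩
  -- `S V_J` is an `r`-group
  have hS' : IsPGroup r ((S : Subgroup ↥(MJ cs h X J)).map (MJ cs h X J).subtype) := S.isPGroup'.map _
  have hle : (S : Subgroup ↥(MJ cs h X J)).map (MJ cs h X J).subtype ≤ MJ cs h X J := by
    rintro _ ⟨x, -, rfl⟩
    exact x.2
  have hn : (S : Subgroup ↥(MJ cs h X J)).map (MJ cs h X J).subtype ≤ Subgroup.normalizer (VJ cs h X J : Set Y) :=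
    hle.trans ((MJ_le_LJ (T := T) J).trans (LJ_le_normalizer_VJ R J))
  have hp : IsPGroup r ((S : Subgroup ↥(MJ cs h X J)).map (MJ cs h X J).subtype ⊔ VJ cs h X J : Subgroup Y) :=
    hS'.to_sup_of_normal_right' hV hn
  have hUle : RGD.Sup X (RGD.Pos cs h) ≤ (S : Subgroup ↥(MJ cs h X J)).map (MJ cs h X J).subtype ⊔ VJ cs h X J := by
    intro x hx
    obtain ⟨u, hu, v, hv, rfl⟩ := (mem_U_iff R (J := J)).1 hx
    exact Subgroup.mul_mem_sup ⟨⟨u, UJ_le_MJ R J hu⟩, hS (Subgroup.mem_subgroupOf.2 hu), rfl⟩ hv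
  obtain ⟨P, hP⟩ := Cfsg.Agent.KFacts.RgdAutFacts.exists_sylow R hG
  have h3 := P.is_maximal' hp (by rw [hP]; exact hUle)
  intro x hx
  rw [Subgroup.mem_subgroupOf]
  refine mem_UJ_of_mem R ?_ (MJ_le_LJ J x.2)
  rw [← hP, ← h3]
  exact (le_sup_left : _ ≤ _ ⊔ VJ cs h X J) ⟨x, hx, rfl⟩

/-- **Harish-Chandra induction to `V_K`.** -/
theorem exists_noFix_VJ [Finite W] [Finite Y] [Fact r.Prime] {p : ℕ} [Fact p.Prime] (hG : GG cs h T X = ⊤) (J K : Set I)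
    (hK : ∀ (w : W), ∀ x ∈ PosJ cs h K, rep cs h w x ∉ RootsJ cs h J) (hgood : Good p r ↥(MJ cs h X J))
    {M' : Ideal AlgInt} (hM : IsPModular p M') :
    ∃ χ : IrrCharacter Y, χ ∈ principalBlock M' Y ∧ NoFix (VJ cs h X K) (χ : Y → ℂ) := by
  obtain ⟨π, hπL, hπV⟩ := exists_projL R J
  obtain ⟨S, hS⟩ := exists_sylow_MJ R hG J
  let H : Subgroup Y := MJ cs h X J ⊔ VJ cs h X J
  have hHP : H ≤ PJ cs h T X J := sup_le ((MJ_le_LJ (T := T) J).trans LJ_le_PJ) VJ_le_PJ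
  have hnorm : MJ cs h X J ≤ Subgroup.normalizer (VJ cs h X J : Set Y) :=
    (MJ_le_LJ (T := T) J).trans (LJ_le_normalizer_VJ R J)
  have hπm : ∀ (m : Y) (hm : m ∈ MJ cs h X J) (v : Y) (hv : v ∈ VJ cs h X J) (hmv : m * v ∈ PJ cs h T X J),
      ((π ⟨m * v, hmv⟩ : ↥(LJ cs h T X J)) : Y) = m := by
    intro m hm v hv hmv
    have e : (⟨m * v, hmv⟩ : ↥(PJ cs h T X J)) = ⟨m, LJ_le_PJ (MJ_le_LJ J hm)⟩ * ⟨v, VJ_le_PJ hv⟩ := rfl
    rw [e, map_mul, hπL m (MJ_le_LJ J hm), hπV v hv, mul_one]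
  have hπH : ∀ x : H, ((π ⟨x, hHP x.2⟩ : ↥(LJ cs h T X J)) : Y) ∈ MJ cs h X J := by
    rintro ⟨x, hx⟩
    have h1 : x ∈ ((MJ cs h X J ⊔ VJ cs h X J : Subgroup Y) : Set Y) := hx
    rw [Subgroup.coe_mul_of_left_le_normalizer_right _ _ hnorm, Set.mem_mul] at h1
    obtain ⟨m, hm, v, hv, rfl⟩ := h1
    rw [hπm m hm v hv]
    exact hm
  let f : H →* ↥(MJ cs h X J) :=
    (((LJ cs h T X J).subtype.comp π).comp (Subgroup.inclusion hHP)).codRestrict (MJ cs h X J) hπH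
  have hf : ∀ x : H, ((f x : ↥(MJ cs h X J)) : Y) = ((π ⟨x, hHP x.2⟩ : ↥(LJ cs h T X J)) : Y) := fun x => rfl
  have hMH : MJ cs h X J ≤ H := le_sup_left
  have hVH : VJ cs h X J ≤ H := le_sup_right
  have hfM : ∀ (m : Y) (hm : m ∈ MJ cs h X J), f ⟨m, hMH hm⟩ = ⟨m, hm⟩ := by
    intro m hm
    apply Subtype.ext
    rw [hf, hπL m (MJ_le_LJ J hm)]
  have hfV : ∀ (v : Y) (hv : v ∈ VJ cs h X J), f ⟨v, hVH hv⟩ = 1 := by
    intro v hv
    apply Subtype.ext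
    rw [hf, hπV v hv]
    rfl
  refine exists_noFix H f (fun m => ⟨⟨m, hMH m.2⟩, hfM m m.2⟩) _ ?_ hgood hM
  intro g
  obtain ⟨a, ha, b, hb, w, k, hk, e, hw⟩ := exists_left_min R hG J g
  obtain ⟨l, hl, v, hv, rfl⟩ := (mem_PJ R).1 ha
  obtain ⟨m, hm, t, ht, rfl⟩ := (mem_LJ_iff_mul' R J).1 hl
  refine ⟨(⟨m, hm⟩ : ↥(MJ cs h X J)) • S, ?_⟩
  rintro ⟨q, hqM⟩ hq
  have hq' : m⁻¹ * q * m ∈ UJ cs h X J := by
    have h1 : (⟨q, hqM⟩ : ↥(MJ cs h X J)) ∈ (((⟨m, hm⟩ : ↥(MJ cs h X J)) • S : Sylow r ↥(MJ cs h X J)) :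
      Subgroup ↥(MJ cs h X J)) := hq
    rw [Sylow.smul_def, Sylow.pointwise_smul_def, Subgroup.mem_pointwise_smul_iff_inv_smul_mem,
      ← map_inv, MulAut.smul_def, MulAut.conj_apply, inv_inv, hS, Subgroup.mem_subgroupOf] at h1
    exact h1
  have hTU : T ≤ Subgroup.normalizer (UJ cs h X J : Set Y) := R.T_le_normalizer fun _ hx => hx.1
  have hu : t⁻¹ * (m⁻¹ * q * m) * t ∈ UJ cs h X J := by
    have := (Subgroup.mem_normalizer_iff.1 (inv_mem (hTU ht)) (m⁻¹ * q * m)).1 hq'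
    rwa [inv_inv] at this
  -- `V_J` is normalised by `m t`
  have hv' : (m * t) * v * (m * t)⁻¹ ∈ VJ cs h X J :=
    (Subgroup.mem_normalizer_iff.1 (LJ_le_normalizer_VJ R J hl) v).1 hv
  have hx : (m * t) * v * (m * t)⁻¹ * q * ((m * t) * v * (m * t)⁻¹)⁻¹ ∈ H :=
    mul_mem (mul_mem (hVH hv') (hMH hqM)) (inv_mem (hVH hv'))
  refine ⟨⟨_, hx⟩, ?_, ?_⟩
  · have e1 : g⁻¹ * ((m * t) * v * (m * t)⁻¹ * q * ((m * t) * v * (m * t)⁻¹)⁻¹) * g =
        b⁻¹ * (k⁻¹ * (v⁻¹ * ((t⁻¹ * (m⁻¹ * ((m * t) * v * (m * t)⁻¹ * q * ((m * t) * v * (m * t)⁻¹)⁻¹) * m) * t)) * v) * k) * b := by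
      rw [e]; group
    have e2 : v⁻¹ * ((t⁻¹ * (m⁻¹ * ((m * t) * v * (m * t)⁻¹ * q * ((m * t) * v * (m * t)⁻¹)⁻¹) * m) * t)) * v =
        t⁻¹ * (m⁻¹ * q * m) * t := by group
    show g⁻¹ * ((m * t) * v * (m * t)⁻¹ * q * ((m * t) * v * (m * t)⁻¹)⁻¹) * g ∈ _
    rw [e1, e2]
    have hkk : k⁻¹ * (t⁻¹ * (m⁻¹ * q * m) * t) * k ∈ VJ cs h X K := by
      refine conj_mem_Sup' R hk (fun x hx => hx.1) (fun x hx => ?_) hu
      have h0 : 0 ≤ rep cs h w⁻¹ x := rep_nonneg_of_supp hw hx.2.1 hx.2.2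
      rcases mem_PosJ_or_NotJ K (hx.1.act w⁻¹) h0 with h1 | h1
      · exfalso
        refine hK w _ h1 ?_
        rw [rep_apply_inv]
        exact PosJ_subset J hx
      · exact h1
    have hbn := inv_mem (PJ_le_normalizer_VJ R K (B_le_PJ hb))
    have := (Subgroup.mem_normalizer_iff.1 hbn _).1 hkk
    rwa [inv_inv] at this
  · have e3 : (⟨_, hx⟩ : H) = ⟨_, hVH hv'⟩ * ⟨q, hMH hqM⟩ * (⟨_, hVH hv'⟩)⁻¹ := rfl
    rw [e3, map_mul, map_mul, map_inv, hfV _ hv', hfM q hqM]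
    simp

end rgd

end Cfsg.Agent.H298.EP
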